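import Cfsg.Agent.Lib.TCX.RM11a.Defs

set_option autoImplicit false
set_option maxRecDepth 100000
set_option Elab.async false

namespace Cfsg.Agent.TCX.RM11a

theorem c0 : orR l0f 0 6 = 0 := by decide +kernel
theorem c1 : l0m 55 0 = 0 := by decide +kernel
theorem c2 : orR l1f 0 6 = 0 := by decide +kernel
theorem c3 : l1m 9 1 = 0 := by decide +kernel
theorem c4 : orR l2f 0 6 = 0 := by decide +kernel
theorem c5 : l2m 2 0 = 0 := by decide +kernel
theorem c6 : orR l3f 0 6 = 0 := by decide +kernel
theorem c7 : l3m 8 0 = 0 := by decide +kernel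

end Cfsg.Agent.TCX.RM11a
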